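import Cfsg.Agent.H40.PV.GTwoPS
import Cfsg.Agent.H40.PV.Reg
import Cfsg.Agent.H526.Van.Chev

/-!
# `G₂(q)`, `p ∣ q² - 1`, `p ≠ 5`, `q ≥ 8` (helper40, S4555 / S4559)
-/

set_option autoImplicit false
set_option linter.unusedSectionVars false

open Cfsg

namespace Cfsg.Agent.H40.PV.GT

open CoxeterSystem Cfsg.Agent.ChevalleyStructure.CoxeterGeom Cfsg.Agent.Tits.Roots Cfsg.Agent.Tits.Core
  Cfsg.Agent.Nodes.Reps Cfsg.Agent.Nodes.BNOf Cfsg.Agent.Nodes.Bruhat Cfsg.Agent.Nodes.LeviDec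
open Cfsg.Lie Cfsg.Agent.ChevalleyStructure Cfsg.Agent.ChevalleyStructure.Elts
  Cfsg.Agent.ChevalleyStructure.RootVec Cfsg.Agent.ChevalleyStructure.RootVecTab
  Cfsg.Agent.ChevalleyStructure.NPerm Cfsg.Agent.ChevalleyStructure.CoxeterGeomTypes
open Cfsg.Agent.Nodes.RGDChev Cfsg.Agent.H35.ExcIdx Cfsg.Agent.H35.PoinNum Cfsg.Agent.H115.HC
  Cfsg.Agent.H115.HC.GTwo Cfsg.Agent.KFacts.RgdDiag

universe u

variable {K : Type u} [Field K] [Fintype K]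

/-- the elliptic elements -/
theorem vz_ell' (h8 : 8 ≤ Fintype.card K) :
    ∃ φ : Matrix.SpecialLinearGroup (Fin 2) K →* ↥(chevG2.group K), ∀ A, NoSplit A →
      H713.VZ ↥(chevG2.group K) (φ A) ∧ φ A ≠ 1 := by
  classical
  obtain ⟨p, hch⟩ := CharP.exists K
  have : Fact p.Prime := ⟨CharP.char_is_prime K p⟩
  have hfin := finite_W hpG2 cs
  have R := rgd (K := K) hpG2 cs p
  have := Fintype.ofFinite ↥(chevG2.group K)
  obtain ⟨χ, hχ⟩ := exists_ps (K := K) (p := p) h8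
  obtain ⟨φ, hup, hlo⟩ := exists_sl2 K 1
  obtain ⟨s1, s2, -, -⟩ := simple_eq
  obtain ⟨-, v6, v5, -⟩ := vec_sr
  have g6 : 6 < chevG2.nroots := by decide +kernel
  have g5 : 5 < chevG2.nroots := by decide +kernel
  rw [s1] at hup
  rw [s2] at hlo
  refine ⟨φ, fun A hA => ?_⟩
  have hE : Ell cs hpG2.isCartan (TT chevG2 K) (XX chevG2 2 K) {1} (φ A) := by
    refine ell_of_sl2 R φ (fun t => ?_) (fun t => ?_) (fun u hu => ?_) (fun u hu => ?_) (fun t ht => ?_) hA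
    · rw [hup]; exact (XX_iff g6 v6).2 ⟨t, rfl⟩
    · rw [hlo]; exact (XX_iff g5 v5).2 ⟨t, rfl⟩
    · obtain ⟨t, rfl⟩ := (XX_iff g6 v6).1 hu
      exact ⟨t, (hup t).symm⟩
    · obtain ⟨t, rfl⟩ := (XX_iff g5 v5).1 hu
      exact ⟨t, (hlo t).symm⟩
    · rw [hlo]; exact xx_ne_one g5 ht
  refine ⟨vz_of_ell_B R (GG_eq_top hpG2 K _) hχ (Set.singleton_nonempty _) hE, ?_⟩
  intro h1
  rw [h1] at hE
  have h2 := hE.2 1 (one_mem _) ∅ (Set.empty_subset _) (by simp)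
  exact Set.singleton_ne_empty _ h2.symm

theorem pos_root : ∀ r < 12, (∀ k : Fin 2, 0 ≤ vec chevG2 2 r k) → 6 ≤ r := by decide +kernel

/-- the scaling of `hh 0 a * hh 1 b` -/
theorem scal_mul {s : ℕ} (hs : s < chevG2.nroots) (a b : Kˣ) :
    scal K s hs ⟨hh K 0 a * hh K 1 b, mul_mem (hh_mem 0 a.ne_zero) (hh_mem 1 b.ne_zero)⟩ =
      a ^ (chevG2.cartan (0 : Fin 2) s) * b ^ (chevG2.cartan (1 : Fin 2) s) := by
  have h1 : (⟨hh K 0 a * hh K 1 b, mul_mem (hh_mem 0 a.ne_zero) (hh_mem 1 b.ne_zero)⟩ : ↥(TT chevG2 K)) =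
      ⟨hh K 0 a, hh_mem 0 a.ne_zero⟩ * ⟨hh K 1 b, hh_mem 1 b.ne_zero⟩ := rfl
  rw [h1, map_mul, scal_hh, scal_hh]

/-- no fixed points -/
theorem free_of_scal {s : ℕ} (hs : s < chevG2.nroots) {t : ↥(chevG2.group K)} (ht : t ∈ TT chevG2 K)
    (h1 : scal K s hs ⟨t, ht⟩ ≠ 1) {u : K} (hc : t * xx K s u = xx K s u * t) : u = 0 := by
  have h2 := scal_spec hs ⟨t, ht⟩ u
  change t * xx K s u = xx K s (scal K s hs ⟨t, ht⟩ * u) * t at h2
  rw [hc, mul_left_inj] at h2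
  have h3 := xx_inj hs h2
  by_contra h0
  apply h1
  apply Units.ext
  rw [Units.val_one]
  have h4 : (1 : K) * u = scal K s hs ⟨t, ht⟩ * u := by rw [one_mul]; exact h3
  exact (mul_right_cancel₀ h0 h4).symm

/-- **Regular elements of the torus.** -/
theorem vz_scal (hs : IsSimpleGroup ↥(chevG2.group K)) {t : ↥(chevG2.group K)} (ht : t ∈ TT chevG2 K)
    (h : ∀ s (hs : s < chevG2.nroots), 6 ≤ s → scal K s hs ⟨t, ht⟩ ≠ 1) : H713.VZ ↥(chevG2.group K) t := by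
  classical
  obtain ⟨p, hch⟩ := CharP.exists K
  have : Fact p.Prime := ⟨CharP.char_is_prime K p⟩
  have hfin := finite_W hpG2 cs
  have R := rgd (K := K) hpG2 cs p
  have := Fintype.ofFinite ↥(chevG2.group K)
  have g6 : 6 < chevG2.nroots := by decide +kernel
  have hnc : t * xx K 6 1 ≠ xx K 6 1 * t := fun hc =>
    one_ne_zero (free_of_scal g6 ht (h 6 g6 le_rfl) hc)
  have hZ : Subgroup.center ↥(chevG2.group K) = ⊥ := by
    rcases hs.eq_bot_or_eq_top_of_normal (Subgroup.center ↥(chevG2.group K)) inferInstance with h1 | h1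
    · exact h1
    · exfalso
      apply hnc
      have h2 : xx K 6 (1 : K) ∈ Subgroup.center ↥(chevG2.group K) := by rw [h1]; exact Subgroup.mem_top _
      exact Subgroup.mem_center_iff.1 h2 t
  refine vz_of_regular R (G1_eq_top hpG2 _) hZ ht fun y hy hy0 u hu hc => ?_
  obtain ⟨s, hs', rfl⟩ := (isRoot_iff hpG2 cs y).1 hy
  obtain ⟨v, rfl⟩ := (XX_iff hs' rfl).1 hu
  have h6 : 6 ≤ s := pos_root s (by rw [← nroots_eq]; exact hs') fun k => hy0 k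
  rw [free_of_scal hs' ht (h s hs' h6) hc, xx_zero]

theorem exps_reg : ∀ s < 12, 6 ≤ s → 0 < 3 * chevG2.cartan (0 : Fin 2) s + 5 * chevG2.cartan (1 : Fin 2) s ∧
    3 * chevG2.cartan (0 : Fin 2) s + 5 * chevG2.cartan (1 : Fin 2) s ≤ 5 := by decide +kernel

/-- the element `ρ^∨(d)` -/
theorem vz_height (hs : IsSimpleGroup ↥(chevG2.group K)) {d : Kˣ} (hd : 6 ≤ orderOf d) :
    H713.VZ ↥(chevG2.group K) (hh K 0 ((d ^ 3 : Kˣ) : K) * hh K 1 ((d ^ 5 : Kˣ) : K)) := by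
  refine vz_scal hs (mul_mem (hh_mem 0 (d ^ 3).ne_zero) (hh_mem 1 (d ^ 5).ne_zero)) fun s hs' h6 => ?_
  rw [scal_mul hs' (d ^ 3) (d ^ 5), ← zpow_natCast, ← zpow_natCast, ← zpow_mul, ← zpow_mul, ← zpow_add]
  intro h1
  obtain ⟨h2, h3⟩ := exps_reg s (by rw [← nroots_eq]; exact hs') h6
  have h4 := orderOf_dvd_iff_zpow_eq_one.2 h1
  push_cast at h4
  have h5 := Int.le_of_dvd h2 h4
  omega

theorem height_pow (d : Kˣ) (m : ℕ) : (hh K 0 ((d ^ 3 : Kˣ) : K) * hh K 1 ((d ^ 5 : Kˣ) : K)) ^ m =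
    hh K 0 (((d ^ m) ^ 3 : Kˣ) : K) * hh K 1 (((d ^ m) ^ 5 : Kˣ) : K) := by
  have hc : Commute (hh K 0 ((d ^ 3 : Kˣ) : K)) (hh K 1 ((d ^ 5 : Kˣ) : K)) :=
    TT_comm _ (hh_mem 0 (d ^ 3).ne_zero) _ (hh_mem 1 (d ^ 5).ne_zero)
  rw [hc.mul_pow, hh_pow 0 (d ^ 3).ne_zero, hh_pow 1 (d ^ 5).ne_zero, ← Units.val_pow_eq_pow_val,
    ← Units.val_pow_eq_pow_val, ← pow_mul, ← pow_mul, ← pow_mul, ← pow_mul, mul_comm m 3, mul_comm m 5]

/-- the element `ρ^∨(d)` has the order of `d` -/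
theorem height_order {d : Kˣ} {m : ℕ} (hd : orderOf d = m) (h6 : 6 ≤ m) (hpp : ∃ p j, p.Prime ∧ m = p ^ (j + 1)) :
    orderOf (hh K 0 ((d ^ 3 : Kˣ) : K) * hh K 1 ((d ^ 5 : Kˣ) : K)) = m := by
  have g7 : 7 < chevG2.nroots := by decide +kernel
  obtain ⟨p, j, hp, rfl⟩ := hpp
  have := Fact.mk hp
  refine orderOf_eq_prime_pow (fun h1 => ?_) ?_
  · rw [height_pow] at h1
    set e := d ^ p ^ j with he
    have h2 : scal K 7 g7 ⟨hh K 0 ((e ^ 3 : Kˣ) : K) * hh K 1 ((e ^ 5 : Kˣ) : K),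
        mul_mem (hh_mem 0 (e ^ 3).ne_zero) (hh_mem 1 (e ^ 5).ne_zero)⟩ = 1 := by
      have h3 : (⟨hh K 0 ((e ^ 3 : Kˣ) : K) * hh K 1 ((e ^ 5 : Kˣ) : K),
        mul_mem (hh_mem 0 (e ^ 3).ne_zero) (hh_mem 1 (e ^ 5).ne_zero)⟩ : ↥(TT chevG2 K)) = 1 := Subtype.ext h1
      rw [h3, map_one]
    rw [scal_mul g7] at h2
    have c0 : chevG2.cartan (0 : Fin 2) 7 = 2 := by decide +kernel
    have c1 : chevG2.cartan (1 : Fin 2) 7 = -1 := by decide +kernel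
    rw [c0, c1] at h2
    have h3 : e = 1 := by
      rw [← h2]
      group
    have h4 := orderOf_dvd_of_pow_eq_one h3
    rw [hd] at h4
    have h5 := Nat.le_of_dvd (pow_pos hp.pos j) h4
    have h6 : p ^ j < p ^ (j + 1) := Nat.pow_lt_pow_right hp.one_lt (Nat.lt_succ_self j)
    omega
  · rw [height_pow, ← hd, pow_orderOf_eq_one, one_pow, one_pow, Units.val_one, hh_one, hh_one, one_mul]

/-- **`G₂(q)`, `q ≥ 8`, `p ∣ q² - 1`, `p > 5`, or `p = 5 ∣ q + 1`, or `p = 2` and `q ≡ 3 (4)` or `q ≡ 1 (8)`.** -/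
theorem row_big (hs : IsSimpleGroup ↥(chevG2.group K)) (h8 : 8 ≤ Fintype.card K) {p : ℕ} (hp : p.Prime)
    (hd : p ∣ Fintype.card K ^ 2 - 1) (h3 : p ≠ 3 ∨ ¬ 3 ∣ Fintype.card K - 1) (h5 : p ≠ 5 ∨ ¬ 5 ∣ Fintype.card K - 1)
    (h2 : p = 2 → Fintype.card K % 4 = 3 ∨ 8 ∣ Fintype.card K - 1) :
    (p ≠ 2 → H620.PNorm.VOrdP p ↥(chevG2.group K)) ∧ H620.PNorm.VPow p ↥(chevG2.group K) := by
  classical
  have hfac : Fintype.card K ^ 2 - 1 = (Fintype.card K - 1) * (Fintype.card K + 1) := by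
    obtain ⟨m, hm⟩ := Nat.exists_eq_add_of_le h8
    rw [hm, show (8 + m) ^ 2 = (8 + m - 1) * (8 + m + 1) + 1 by
      have : 8 + m - 1 = 7 + m := by omega
      rw [this]; ring]
    rfl
  rw [hfac] at hd
  have := Fact.mk hp
  have key : p ≠ 2 → H620.PNorm.VOrdP p ↥(chevG2.group K) := by
    intro h2
    rcases hp.dvd_mul.1 hd with h | h
    · obtain ⟨d, hd⟩ := exists_prime_orderOf_dvd_card (G := Kˣ) p (by rwa [Fintype.card_units])
      have h7 : 6 ≤ p := by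
        have h4 := hp.two_le
        by_contra hlt
        have hcase : p = 2 ∨ p = 3 ∨ p = 4 ∨ p = 5 := by omega
        rcases hcase with rfl | rfl | rfl | rfl
        · exact h2 rfl
        · rcases h3 with h3 | h3
          · exact h3 rfl
          · exact h3 h
        · exact absurd hp (by decide)
        · rcases h5 with h5 | h5
          · exact h5 rfl
          · exact h5 h
      exact ⟨_, height_order hd h7 ⟨p, 0, hp, by rw [zero_add, pow_one]⟩, vz_height hs (by rw [hd]; exact h7)⟩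
    · obtain ⟨A, hA, hN⟩ := exists_noSplit (F := K) hp h2 (by rwa [Nat.card_eq_fintype_card])
      obtain ⟨φ, hφ⟩ := vz_ell' (K := K) h8
      refine ⟨φ A, orderOf_eq_prime ?_ (hφ A hN).2, (hφ A hN).1⟩
      rw [← map_pow, ← hA, pow_orderOf_eq_one, map_one]
  refine ⟨key, ?_⟩
  by_cases h2' : p = 2
  · subst h2'
    rcases h2 rfl with h2 | h2
    · obtain ⟨A, hA, hN⟩ := exists_noSplit_four (F := K) (by rwa [Nat.card_eq_fintype_card])
      obtain ⟨φ, hφ⟩ := vz_ell' (K := K) h8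
      refine ⟨φ A, ?_, (hφ A hN).1⟩
      have h6 : φ A ^ 2 ^ 2 = 1 := by
        rw [← map_pow, show 2 ^ 2 = 4 from rfl, hA, map_one]
      obtain ⟨k, -, hk⟩ := (Nat.dvd_prime_pow Nat.prime_two).1 (orderOf_dvd_of_pow_eq_one h6)
      exact ⟨k, hk⟩
    · obtain ⟨g, hg⟩ := IsCyclic.exists_generator (α := Kˣ)
      have hog : orderOf g = Fintype.card K - 1 := by
        rw [orderOf_eq_card_of_forall_mem_zpowers hg, Nat.card_eq_fintype_card, Fintype.card_units]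
      obtain ⟨a, ha⟩ := h2
      have ha0 : 0 < a := by omega
      have hd8 : orderOf (g ^ a) = 8 := by
        rw [orderOf_pow_of_dvd ha0.ne' (by rw [hog, ha]; exact dvd_mul_left _ _), hog, ha,
          Nat.mul_div_cancel _ ha0]
      exact ⟨_, ⟨3, height_order hd8 (by norm_num) ⟨2, 2, Nat.prime_two, by norm_num⟩⟩,
        vz_height hs (by rw [hd8]; norm_num)⟩
  · exact (key h2').vPow

end Cfsg.Agent.H40.PV.GT
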