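import Cfsg.Agent.H628.Sq.Par
import Cfsg.Agent.H246.Dl.KType
import Cfsg.Agent.H40.PV.One

/-!
# Many irreducible characters with the same restrictions are cuspidal (helper40, S4555 / S4559)

* `norm_le_card` : `‖Ind ψ‖² ≤` the number of double cosets of `P = L R` with nonzero Mackey term, if their
  representatives normalise `L`;
* `norm_le_W` : Harish-Chandra induction of a cuspidal character gives a norm `≤ |W|`;
* `not_hasFix` : more than `|W|` irreducible characters which agree on all maximal parabolic subgroups of a group with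
  a root group datum of rank two: they have no `V_J`-fixed vectors.
-/

set_option autoImplicit false
set_option linter.unusedSectionVars false

open scoped ComplexConjugate
open Cfsg

namespace Cfsg.Agent.H40.PV

open Cfsg.Agent.OddOrderCharacters.Clifford Cfsg.Agent.Characters Cfsg.Agent.H53.HC Cfsg.Agent.H628.Sq
  Cfsg.Agent.H246.Dl

section abstract_

variable {G : Type*} [Group G]

/-- the Mackey term at an element normalising `L` -/
theorem twist_le_one [Fintype G] (P R L : Subgroup G) [Fintype P] (hRP : R ≤ P) (hLP : L ≤ P)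
    (hPL : ∀ g ∈ P, ∃ l ∈ L, ∃ r ∈ R, g = l * r) (y : G)
    (hy : ∀ l, l ∈ L ↔ y⁻¹ * l * y ∈ L) {ψ : P → ℂ} (hψ : IsIrrCharacter P ψ)
    (hR : ∀ g r : P, (r : G) ∈ R → ψ (g * r) = ψ g) :
    ‖twist P ψ ψ y‖ ≤ 1 * Nat.card (dsub P y) := by
  classical
  have hch := Core.isIrr_isCharacter hψ
  set t : G → ℂ := extendByZero P ψ with ht
  have tP : ∀ g (hg : g ∈ P), t g = ψ ⟨g, hg⟩ := fun g hg => ext_apply_mem P ψ g hg
  have tr : ∀ g r, r ∈ R → t (g * r) = t g := by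
    intro g r hr
    by_cases hg : g ∈ P
    · rw [tP g hg, tP _ (mul_mem hg (hRP hr))]
      exact hR ⟨g, hg⟩ ⟨r, hRP hr⟩ hr
    · rw [ht, ext_apply_not_mem P ψ g hg, ext_apply_not_mem P ψ _ fun h => hg ?_]
      have := mul_mem h (inv_mem (hRP hr))
      rwa [mul_inv_cancel_right] at this
  have hnP : ∑ g : P, ‖t g‖ ^ 2 = Nat.card P := by
    have h1 := Core.classInner_irr_self hψ
    rw [classInner_apply, inv_mul_eq_iff_eq_mul₀ card_ne_zero', mul_one] at h1
    have h2 : ((∑ g : P, ‖t g‖ ^ 2 : ℝ) : ℂ) = ((Nat.card P : ℝ) : ℂ) := by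
      rw [Complex.ofReal_natCast, ← h1]
      push_cast
      refine Finset.sum_congr rfl fun g _ => ?_
      rw [tP g g.2, Complex.mul_conj, Complex.normSq_eq_norm_sq]
      push_cast
      rfl
    exact_mod_cast h2
  have : Fintype L := Fintype.ofFinite L
  have hnL : ∑ l : L, ‖t l‖ ^ 2 = Nat.card L := by
    have h1 := Par.sum_P (P := P) (L := L) (R := R) (fun g => ‖t g‖ ^ 2) hLP (fun g r hr => by
      show ‖t (g * r)‖ ^ 2 = _
      rw [tr g r hr]) hPL
    rw [hnP] at h1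
    have h2 : (Nat.card P : ℝ) ≠ 0 := by exact_mod_cast Nat.card_pos.ne'
    have h3 : (Nat.card P : ℝ) * ∑ l : L, ‖t l‖ ^ 2 = Nat.card P * Nat.card L := by
      rw [h1, mul_comm]
    exact mul_left_cancel₀ h2 h3
  refine NormLe.twist_le_of_sub P hch hch y L hLP (fun l hl => hLP ((hy l).1 hl)) ?_
  refine (norm_sum_le _ _).trans ?_
  have h2 : ∑ l : L, ‖t (y⁻¹ * l * y)‖ ^ 2 = ∑ l : L, ‖t l‖ ^ 2 := by
    refine Fintype.sum_equiv
      { toFun := fun m : L => (⟨y⁻¹ * m * y, (hy m).1 m.2⟩ : L)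
        invFun := fun m : L => (⟨y * m * y⁻¹, (hy _).2 (by
          have : y⁻¹ * (y * (m : G) * y⁻¹) * y = m := by group
          rw [this]; exact m.2)⟩ : L)
        left_inv := fun m => Subtype.ext (by simp; group)
        right_inv := fun m => Subtype.ext (by simp; group) } _ _ fun m => rfl
  calc ∑ l : L, ‖ψ ⟨l, hLP l.2⟩ * conj (ψ ⟨y⁻¹ * l * y, hLP ((hy l).1 l.2)⟩)‖ =
      ∑ l : L, ‖t l‖ * ‖t (y⁻¹ * l * y)‖ := by
        refine Finset.sum_congr rfl fun l _ => ?_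
        rw [norm_mul, RCLike.norm_conj, tP l (hLP l.2), tP _ (hLP ((hy l).1 l.2))]
    _ ≤ ∑ l : L, (‖t l‖ ^ 2 + ‖t (y⁻¹ * l * y)‖ ^ 2) / 2 := Finset.sum_le_sum fun l _ => Par.mul_le_half
    _ = 1 * Nat.card L := by
        rw [← Finset.sum_div, Finset.sum_add_distrib, h2, hnL]
        ring

/-- **An upper bound for the norm.** -/
theorem norm_le_card [Fintype G] (P R L : Subgroup G) [Fintype P] (hRP : R ≤ P) (hLP : L ≤ P)
    (hPL : ∀ g ∈ P, ∃ l ∈ L, ∃ r ∈ R, g = l * r) {ι : Type*} [Fintype ι] (y : ι → G)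
    (hy : ∀ i l, l ∈ L ↔ (y i)⁻¹ * l * y i ∈ L) {ψ : P → ℂ} (hψ : IsIrrCharacter P ψ)
    (hR : ∀ g r : P, (r : G) ∈ R → ψ (g * r) = ψ g)
    (hd : ∀ x, (∃ i, ∃ a ∈ P, ∃ b ∈ P, x = a * y i * b) ∨ twist P ψ ψ x = 0) :
    ‖classInner (indFun P ψ) (indFun P ψ)‖ ≤ Fintype.card ι := by
  classical
  have hcl := Core.isIrr_isClassFunction hψ
  have key := NormLe.norm_le P hcl (ι := ι ⊕ {x : G // twist P ψ ψ x = 0}) (Sum.elim y fun x => x.1)
    (Sum.elim (fun _ => 1) fun _ => 0) ?_ ?_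
  · refine key.trans (le_of_eq ?_)
    rw [Fintype.sum_sum_type]
    simp
  · intro x
    rcases hd x with ⟨i, a, ha, b, hb, e⟩ | h0
    · exact ⟨Sum.inl i, a, ha, b, hb, e⟩
    · exact ⟨Sum.inr ⟨x, h0⟩, 1, one_mem _, 1, one_mem _, by simp⟩
  · rintro (i | ⟨x, hx⟩)
    · exact twist_le_one P R L hRP hLP hPL (y i) (hy i) hψ hR
    · simp [hx]

/-- characters with the same restriction to `P` -/
theorem card_le_of_agree [Fintype G] {P V : Subgroup G} [Fintype P] (hV : V ≤ P)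
    (hn : P ≤ Subgroup.normalizer (V : Set G)) (s : Finset (IrrCharacter G))
    (hs : ∀ χ ∈ s, ∀ χ' ∈ s, ∀ x ∈ P, (χ : G → ℂ) x = (χ' : G → ℂ) x) {χ : IrrCharacter G} (hχ : χ ∈ s)
    (hfix : HasFix (χ : G → ℂ) V) :
    ∃ β : P → ℂ, IsIrrCharacter P β ∧ classInner β (fun t : P => (χ : G → ℂ) t) ≠ 0 ∧
      (∀ (v : G) (hv : v ∈ V), β ⟨v, hV hv⟩ = β 1) ∧
      (s.card : ℝ) ≤ ‖classInner (indFun P β) (indFun P β)‖ := by
  classical
  obtain ⟨β, hβ, hne, hβV⟩ := exists_const hV hn (Core.isIrr_isCharacter χ.2) hfix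
  refine ⟨β, hβ, hne, hβV, ?_⟩
  refine NormLe.card_le_norm (Cfsg.Agent.S0148.result P _ (Core.isIrr_isCharacter hβ)) s fun χ' hχ' => ?_
  rw [classInner_indFun P β _ (Core.isIrr_isClassFunction χ'.2)]
  have h1 : (fun t : P => (χ' : G → ℂ) t) = fun t : P => (χ : G → ℂ) t :=
    funext fun t => hs χ' hχ' χ hχ t t.2
  rw [h1]
  exact hne

end abstract_

section rgd

open CoxeterSystem Cfsg.Agent.ChevalleyStructure.CoxeterGeom Cfsg.Agent.Tits.Roots Cfsg.Agent.Tits.Core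
  Cfsg.Agent.Tits.Exchange Cfsg.Agent.Nodes.Reps Cfsg.Agent.Nodes.BNOf Cfsg.Agent.Nodes.StabComb
  Cfsg.Agent.Nodes.Bruhat Cfsg.Agent.Nodes.OppDec Cfsg.Agent.Nodes.LeviDec Cfsg.Agent.H115.HC

variable {I W Y : Type*} [Fintype I] [DecidableEq I] [Group W] [Group Y] {M : CoxeterMatrix I}
  {cs : CoxeterSystem M W} {A : I → I → ℤ} {h : IsCartan M A} {p : ℕ} {T : Subgroup Y} {n : I → Y}
  {X : (I → ℤ) → Subgroup Y}

/-- an element permuting the simple roots of `J` preserves the roots of `J` -/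
theorem perm_rootsJ {J : Set I} {w : W} (hw : ∀ i ∈ J, ∃ k ∈ J, rep cs h w (sr i) = sr k) {x : I → ℤ}
    (hx : x ∈ RootsJ cs h J) : rep cs h w x ∈ RootsJ cs h J := by
  refine ⟨hx.1.act w, fun k hk => ?_⟩
  rw [eq_sum_sr x, map_sum, Finset.sum_apply]
  refine Finset.sum_eq_zero fun j _ => ?_
  rw [map_smul, Pi.smul_apply]
  by_cases hj : j ∈ J
  · obtain ⟨m, hm, e⟩ := hw j hj
    rw [e, sr_ne (by rintro rfl; exact hk hm), smul_zero]
  · rw [hx.2 j hj, zero_smul]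

variable (R : RGD cs h p T n X)

include R

theorem conj_mem_LJ {J : Set I} {w : W} {g : Y} (hg : Rp cs R.nsys w g)
    (hw : ∀ i ∈ J, ∃ k ∈ J, rep cs h w (sr i) = sr k) {l : Y} (hl : l ∈ LJ cs h T X J) :
    g * l * g⁻¹ ∈ LJ cs h T X J := by
  have h1 : LJ cs h T X J ≤ (LJ cs h T X J).comap (MulAut.conj g).toMonoidHom := by
    refine sup_le (fun t ht => ?_) (RGD.Sup_le fun x hx u hu => ?_)
    · rw [Subgroup.mem_comap]
      refine T_le_LJ ?_
      have h2 := mem_normalizer_iff_cj.1 hg.mem_normalizer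
      have h3 : g * t * g⁻¹ ∈ cj g T := conj_mem_cj.2 ht
      rwa [h2] at h3
    · rw [Subgroup.mem_comap]
      exact X_le_LJ (perm_rootsJ hw hx) (R.conj_mem hg hx.1 hu)
  exact h1 hl

theorem conj_mem_LJ_iff [Finite W] {J : Set I} {w : W} {g : Y} (hg : Rp cs R.nsys w g) (hw : Perm cs h J w) {l : Y} :
    l ∈ LJ cs h T X J ↔ g⁻¹ * l * g ∈ LJ cs h T X J := by
  constructor
  · intro hl
    have := conj_mem_LJ R hg.inv hw.1 hl
    rwa [inv_inv] at this
  · intro hl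
    have := conj_mem_LJ R hg hw.2 hl
    have e : g * (g⁻¹ * l * g) * g⁻¹ = l := by group
    rwa [e] at this

/-- **Harish-Chandra induction**: the norm is at most `|W|`. -/
theorem norm_le_W [Finite W] [Fintype Y] (hG : GG cs h T X = ⊤) (J : Set I)
    {ψ : ↥(PJ cs h T X J) → ℂ} [Fintype ↥(PJ cs h T X J)] (hψ : IsIrrCharacter _ ψ)
    (hV : ∀ (v : Y) (hv : v ∈ VJ cs h X J), ψ ⟨v, VJ_le_PJ hv⟩ = ψ 1)
    (hc : ∀ i ∈ J, ∀ [Fintype (rad cs h X J i)], ∑ u : rad cs h X J i, ψ ⟨u, rad_le_PJ J i u.2⟩ = 0) :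
    ‖classInner (indFun (PJ cs h T X J) ψ) (indFun (PJ cs h T X J) ψ)‖ ≤ Nat.card W := by
  classical
  have : Fintype W := Fintype.ofFinite W
  have hch := Core.isIrr_isCharacter hψ
  have hsurj : ∀ w : W, ∃ g, Rp cs R.nsys w g := fun w => exists_rp cs R.nsys w
  choose gw hgw using hsurj
  have hPL : ∀ g ∈ PJ cs h T X J, ∃ l ∈ LJ cs h T X J, ∃ r ∈ VJ cs h X J, g = l * r := fun g hg =>
    (mem_PJ R).1 hg
  have hR : ∀ g r : ↥(PJ cs h T X J), (r : Y) ∈ VJ cs h X J → ψ (g * r) = ψ g := fun g r hr =>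
    apply_mul_of_ker hch (hV r hr) g
  have key := norm_le_card (PJ cs h T X J) (VJ cs h X J) (LJ cs h T X J) VJ_le_PJ LJ_le_PJ hPL
    (ι := {w : W // Perm cs h J w}) (fun w => gw w.1) (fun w l => conj_mem_LJ_iff R (hgw w.1) w.2) hψ hR ?_
  · refine key.trans ?_
    rw [Nat.card_eq_fintype_card]
    exact_mod_cast Fintype.card_subtype_le _
  · intro x
    obtain ⟨a, ha, b, hb, w, g, hg, e, h1, h2⟩ := exists_min_rep₂ R hG J J x
    rcases perm_or h1 h2 with hp | ⟨i, hi, hrad⟩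
    · left
      refine ⟨⟨w, hp⟩, a, ha, (gw w)⁻¹ * g * b, mul_mem ?_ hb, by rw [e]; group⟩
      have h3 : Rp cs R.nsys 1 ((gw w)⁻¹ * g) := by
        have := (hgw w).inv.mul hg
        rwa [inv_mul_cancel] at this
      exact LJ_le_PJ (T_le_LJ h3.mem_of_one)
    · right
      have hcl := Core.isIrr_isClassFunction hψ
      rw [e, twist_mul _ hcl hcl ha hb]
      have hconj : ∀ l ∈ rad cs h X J i, g⁻¹ * l * g ∈ VJ cs h X J := fun l hl =>
        conj_mem_Sup' R hg (fun x hx => hx.1.1) hrad hl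
      have : Fintype (rad cs h X J i) := Fintype.ofFinite _
      refine twist_eq_zero_of_sub _ hch hch g (rad cs h X J i) (rad_le_PJ J i) (fun l hl => VJ_le_PJ (hconj l hl)) ?_
      have h3 : ∀ l : rad cs h X J i, ψ ⟨l, rad_le_PJ J i l.2⟩ *
          conj (ψ ⟨g⁻¹ * l * g, VJ_le_PJ (hconj l l.2)⟩) = ψ ⟨l, rad_le_PJ J i l.2⟩ * conj (ψ 1) := by
        intro l
        rw [hV _ (hconj l l.2)]
      rw [Finset.sum_congr rfl fun l _ => h3 l, ← Finset.sum_mul, hc i hi, zero_mul]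

omit R in
theorem VJ_empty' : VJ cs h X ∅ = RGD.Sup X (RGD.Pos cs h) := by
  apply le_antisymm (VJ_le_U ∅)
  refine RGD.Sup_le fun x hx => RGD.le_Sup ?_
  refine ⟨hx.1, hx.2, ?_⟩
  by_contra hno
  push Not at hno
  exact hx.1.ne_zero (funext fun k => le_antisymm (hno k (Set.notMem_empty k)) (hx.2 k))

/-- **Many characters with the same restrictions have no fixed vectors.** -/
theorem not_hasFix [Finite W] [Fintype Y] (hG : GG cs h T X = ⊤) (s : Finset (IrrCharacter Y))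
    (hcard : Nat.card W < s.card)
    (hs : ∀ i, ∀ χ ∈ s, ∀ χ' ∈ s, ∀ x ∈ PJ cs h T X {i}, (χ : Y → ℂ) x = (χ' : Y → ℂ) x)
    {χ : IrrCharacter Y} (hχ : χ ∈ s) (i : I) : ¬ HasFix (χ : Y → ℂ) (VJ cs h X {i}) := by
  classical
  have h0 : ¬ HasFix (χ : Y → ℂ) (VJ cs h X ∅) := by
    intro hfix
    have : Fintype (PJ cs h T X ∅) := Fintype.ofFinite _
    obtain ⟨β, hβ, -, hβV, hle⟩ := card_le_of_agree (VJ_le_PJ (T := T)) (PJ_le_normalizer_VJ R ∅) s
      (fun χ hχ χ' hχ' x hx => hs i χ hχ χ' hχ' x (PJ_mono (Set.empty_subset _) hx)) hχ hfix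
    have h1 := hle.trans (norm_le_W R hG ∅ hβ hβV fun i hi => absurd hi (Set.notMem_empty i))
    have h2 : s.card ≤ Nat.card W := by exact_mod_cast h1
    omega
  intro hfix
  have : Fintype (PJ cs h T X {i}) := Fintype.ofFinite _
  obtain ⟨β, hβ, hne, hβV, hle⟩ := card_le_of_agree (VJ_le_PJ (T := T)) (PJ_le_normalizer_VJ R {i}) s
    (fun χ hχ χ' hχ' x hx => hs i χ hχ χ' hχ' x hx) hχ hfix
  have h1 := hle.trans (norm_le_W R hG {i} hβ hβV ?_)
  · have h2 : s.card ≤ Nat.card W := by exact_mod_cast h1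
    omega
  · intro k hk
    obtain rfl : k = i := hk
    intro hfin
    by_contra hne0
    apply h0
    have : Fintype (VJ cs h X ∅) := Fintype.ofFinite _
    have hU : VJ cs h X ∅ ≤ PJ cs h T X {k} := le_trans (VJ_le_PJ (T := T)) (PJ_mono (Set.empty_subset _))
    refine hasFix_of_constituent hU (Core.isIrr_isCharacter χ.2) hβ hne ?_
    set F : Y → ℂ := extendByZero (PJ cs h T X {k}) β with hF
    have hFP : ∀ g (hg : g ∈ PJ cs h T X {k}), F g = β ⟨g, hg⟩ := fun g hg => ext_apply_mem _ β g hg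
    have hFr : ∀ g r, r ∈ VJ cs h X {k} → F (g * r) = F g := by
      intro g r hr
      by_cases hg : g ∈ PJ cs h T X {k}
      · rw [hFP g hg, hFP _ (mul_mem hg (VJ_le_PJ hr))]
        exact apply_mul_of_ker (Core.isIrr_isCharacter hβ) (hβV r hr) ⟨g, hg⟩
      · rw [hF, ext_apply_not_mem _ β g hg, ext_apply_not_mem _ β _ fun h => hg ?_]
        have := mul_mem h (inv_mem (VJ_le_PJ (T := T) hr))
        rwa [mul_inv_cancel_right] at this
    have hUL : ∀ g ∈ VJ cs h X ∅, ∃ l ∈ rad cs h X {k} k, ∃ r ∈ VJ cs h X {k}, g = l * r := by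
      intro g hg
      rw [VJ_empty', mem_U_iff R (J := {k})] at hg
      rw [UJ_single] at hg
      rwa [rad_single]
    have hLU : rad cs h X {k} k ≤ VJ cs h X ∅ := by
      rw [VJ_empty']
      exact le_trans (rad_le_UJ {k} k) (UJ_le_U _)
    have h3 : ∑ g : VJ cs h X ∅, ∑ l : rad cs h X {k} k, F (l * g) =
        Nat.card (VJ cs h X ∅) * ∑ l : rad cs h X {k} k, F l := by
      rw [Finset.sum_congr rfl fun (g : VJ cs h X ∅) _ => Par.sum_left F hFr (hUL g g.2), Finset.sum_const,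
        Finset.card_univ, Nat.card_eq_fintype_card, nsmul_eq_mul]
    have h4 : ∑ g : VJ cs h X ∅, ∑ l : rad cs h X {k} k, F (l * g) =
        Nat.card (rad cs h X {k} k) * ∑ g : VJ cs h X ∅, F g := by
      rw [Finset.sum_comm]
      have h5 : ∀ l : rad cs h X {k} k, ∑ g : VJ cs h X ∅, F (l * g) = ∑ g : VJ cs h X ∅, F g := fun l =>
        Fintype.sum_equiv (Equiv.mulLeft (⟨l, hLU l.2⟩ : VJ cs h X ∅)) _ _ fun g => rfl
      rw [Finset.sum_congr rfl fun l _ => h5 l, Finset.sum_const, Finset.card_univ, Nat.card_eq_fintype_card,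
        nsmul_eq_mul]
    have h6 : ∑ l : rad cs h X {k} k, F l = ∑ u : rad cs h X {k} k, β ⟨u, rad_le_PJ {k} k u.2⟩ :=
      Finset.sum_congr rfl fun l _ => hFP l _
    have h7 : ∑ g : VJ cs h X ∅, F g = ∑ v : VJ cs h X ∅, β ⟨v, hU v.2⟩ :=
      Finset.sum_congr rfl fun g _ => hFP g _
    intro h8
    rw [h7, h8, mul_zero, h3, h6] at h4
    rcases mul_eq_zero.1 h4 with h9 | h9
    · exact absurd h9 (by exact_mod_cast Nat.card_pos.ne')
    · exact hne0 h9

end rgd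

end Cfsg.Agent.H40.PV
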