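import Cfsg.Agent.H40.PV.Two
import Cfsg.Agent.H115.HC.TwDFour
import Cfsg.Agent.H620.PNorm

/-!
# `³D₄(q)`, `p ∣ q² - 1` (helper40, S4555 / S4559)
-/

set_option autoImplicit false
set_option linter.unusedSectionVars false

open Cfsg

namespace Cfsg.Agent.H40.PV.TD

open CoxeterSystem Cfsg.Agent.ChevalleyStructure.CoxeterGeom Cfsg.Agent.Tits.Roots Cfsg.Agent.Tits.Core
  Cfsg.Agent.Tits.RootComb Cfsg.Agent.Nodes.Comb Cfsg.Agent.Nodes.Reps Cfsg.Agent.Nodes.BNOf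
  Cfsg.Agent.Nodes.BNOf.RGD Cfsg.Agent.Nodes.RGDChev Cfsg.Agent.Nodes.RGDFold
open Cfsg.Agent.Nodes.Bruhat Cfsg.Agent.Nodes.LeviDec
open Cfsg.Lie Cfsg.Agent.ChevalleyStructure Cfsg.Agent.ChevalleyStructure.TwistedU
open Cfsg.Agent.Nodes.RGDFoldSL Cfsg.Agent.H115.HC Cfsg.Agent.H115.HC.TwDFour Cfsg.Agent.KFacts.RgdDiag
open Cfsg.Agent.ChevalleyStructure.SL2Hom (up lo mem_closure_SL2)
open Cfsg.Agent.BiChar.TwDFour

/-- the long relative roots -/
def LT : List ℕ := [14, 22, 23, 9, 1, 0]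

theorem A_eq : Nodes.RGDTwD4.A 0 1 = -1 ∧ Nodes.RGDTwD4.A 1 0 = -3 := by decide +kernel

theorem V14 : V chevD4 Nodes.RGDTwD4.J 14 = sr 0 := by
  funext i
  revert i
  decide +kernel

theorem closed_long : ∀ r ∈ LT, (∃ r' ∈ LT, ∀ k : Fin 2, V chevD4 Nodes.RGDTwD4.J r' k =
      (![-V chevD4 Nodes.RGDTwD4.J r 0 - Nodes.RGDTwD4.A 0 1 * V chevD4 Nodes.RGDTwD4.J r 1,
        V chevD4 Nodes.RGDTwD4.J r 1] : Fin 2 → ℤ) k) ∧
    ∃ r' ∈ LT, ∀ k : Fin 2, V chevD4 Nodes.RGDTwD4.J r' k =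
      (![V chevD4 Nodes.RGDTwD4.J r 0, -Nodes.RGDTwD4.A 1 0 * V chevD4 Nodes.RGDTwD4.J r 0 -
        V chevD4 Nodes.RGDTwD4.J r 1] : Fin 2 → ℤ) k := by
  decide +kernel

theorem orbit_long (w : CoxeterMatrix.G₂.Group) :
    ∃ r ∈ LT, V chevD4 Nodes.RGDTwD4.J r = rep cs Nodes.RGDTwD4.isCartan w (sr 0) := by
  obtain ⟨ω, rfl⟩ := cs.wordProd_surjective w
  induction ω with
  | nil =>
    rw [wordProd_nil, map_one, Module.End.one_apply]
    exact ⟨14, by decide, V14⟩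
  | cons j ω ih =>
    obtain ⟨r, hr, e⟩ := ih
    rw [wordProd_cons, rep_mul_apply, ← e]
    obtain ⟨⟨r₁, hr₁, e₁⟩, r₂, hr₂, e₂⟩ := closed_long r hr
    have hj : j = 0 ∨ j = 1 := by
      fin_cases j
      · exact Or.inl rfl
      · exact Or.inr rfl
    rcases hj with rfl | rfl
    · exact ⟨r₁, hr₁, by rw [rep_zero]; exact funext e₁⟩
    · exact ⟨r₂, hr₂, by rw [rep_one]; exact funext e₂⟩

theorem sep : ∀ r ∈ LT, ∃ k : Fin 2, V chevD4 Nodes.RGDTwD4.J r k ≠ V chevD4 Nodes.RGDTwD4.J 18 k := by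
  decide +kernel

theorem V18 : V chevD4 Nodes.RGDTwD4.J 18 = sr 1 := by
  funext i
  revert i
  decide +kernel

/-- the nodes are not conjugate -/
theorem short_ne_long (w : CoxeterMatrix.G₂.Group) : rep cs Nodes.RGDTwD4.isCartan w (sr 1) ≠ sr 0 := by
  intro h
  obtain ⟨r, hr, e⟩ := orbit_long w⁻¹
  obtain ⟨k, hk⟩ := sep r hr
  apply hk
  rw [e, ← h, rep_inv_apply, V18]

theorem cls_long : ∀ r ∈ LT, ∀ k < chevD4.nroots,
    (V chevD4 Nodes.RGDTwD4.J k = V chevD4 Nodes.RGDTwD4.J r ↔ k ∈ [r]) := by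
  decide +kernel

theorem rank_lt : ∀ r ∈ LT, ∀ k ∈ [r], k < chevD4.nroots := by decide +kernel

theorem cart_long : ∀ r ∈ LT, (chevD4.cartan 1 r = 1 ∨ chevD4.cartan 1 r = -1) ∨
    chevD4.cartan 1 r = 2 ∨ chevD4.cartan 1 r = -2 := by decide +kernel

theorem simple_one : chevD4.simple 1 = 14 ∧ 1 < chevD4.rank := by decide +kernel

theorem rspan_single {F : Type*} [Field F] {r : ℕ} {g : GL chevD4.Idx F}
    (hg : g ∈ rspan (Elts.xG (F := F) Nodes.RGDTwD4.hp.inList) {k | k ∈ [r]}) :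
    ∃ t, g = Elts.xG Nodes.RGDTwD4.hp.inList r t := by
  refine Subgroup.closure_induction (p := fun g _ => ∃ t, g = Elts.xG Nodes.RGDTwD4.hp.inList r t) ?_ ?_ ?_ ?_ hg
  · rintro _ ⟨s, hs, t, rfl⟩
    have hs : s = r := by simpa using hs
    subst hs
    exact ⟨t, rfl⟩
  · exact ⟨0, (Elts.xG_zero _ _).symm⟩
  · rintro _ _ _ _ ⟨s, rfl⟩ ⟨t, rfl⟩
    exact ⟨s + t, Elts.xG_add _ _ _ _⟩
  · rintro _ _ ⟨s, rfl⟩
    exact ⟨-s, Elts.xG_inv _ _ _⟩

theorem zpow_ne_one_of {K : Type*} [Field K] {c : K} (hc2 : c ^ 2 ≠ 1) {z : ℤ}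
    (hz : (z = 1 ∨ z = -1) ∨ z = 2 ∨ z = -2) : c ^ z ≠ 1 := by
  have hc1 : c ≠ 1 := by
    rintro rfl
    exact hc2 (one_pow 2)
  rcases hz with (rfl | rfl) | rfl | rfl
  · rwa [zpow_one]
  · rw [zpow_neg, zpow_one]
    exact fun h => hc1 (inv_eq_one.1 h)
  · exact_mod_cast hc2
  · rw [zpow_neg]
    intro h
    have h1 := inv_eq_one.1 h
    exact hc2 (by exact_mod_cast h1)

variable {K : Type} [Field K] {q : ℕ} {φ : K →+* K}

section

variable (hφ : ∀ x, φ x = x ^ q) (hle : twistedD4 K q ≤ D4Fixed.fix φ)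

/-- elements `h_0(d)` act fixed point freely on the long root groups -/
theorem free_long {d : Fx φ ((Nodes.RGDTwNode.D4.rest 0).length + 1)} (hd : d ≠ 0) (hd2 : d ^ 2 ≠ 1)
    {r : ℕ} (hr : r ∈ LT) {u : ↥(twistedD4 K q)}
    (hu : u ∈ Nodes.RGDTwD4.X φ q (V chevD4 Nodes.RGDTwD4.J r))
    (hc : Ph hφ hle 0 (hS d) * u = u * Ph hφ hle 0 (hS d)) : u = 1 := by
  have hD : Elts.InList chevD4 := Nodes.RGDTwD4.hp.inList
  have hu' : (u : GL chevD4.Idx K) ∈ R chevD4 Nodes.RGDTwD4.hp K Nodes.RGDTwD4.J (D4Fixed.sig φ)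
      (V chevD4 Nodes.RGDTwD4.J r) := Subgroup.mem_subgroupOf.1 hu
  rw [R_eq (cls_long r hr) (rank_lt r hr)] at hu'
  obtain ⟨t, ht⟩ := rspan_single hu'.1
  have hrn : r < chevD4.nroots := rank_lt r hr r (List.mem_singleton.2 rfl)
  obtain ⟨s1, r1⟩ := simple_one
  have hdK : (d : K) ≠ 0 := fun h0 => hd (Subtype.ext h0)
  have hdK2 : (d : K) ^ 2 ≠ 1 := fun h0 => hd2 (Subtype.ext h0)
  have h3 := congrArg (Subtype.val : ↥(twistedD4 K q) → GL chevD4.Idx K) hc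
  rw [Subgroup.coe_mul, Subgroup.coe_mul, ht, coe_hS0] at h3
  have h4 := Cfsg.Agent.ETable.Exc.hG_xG hD r1 hrn hdK t
  rw [s1] at h4
  rw [h4, mul_left_inj] at h3
  have h5 := Elts.xG_injective hD hrn h3
  have h6 : t = 0 := by
    by_contra h0
    exact zpow_ne_one_of hdK2 (cart_long r hr) (mul_right_cancel₀ h0 (by rw [h5, one_mul]))
  apply Subtype.ext
  rw [ht, h6]
  exact Elts.xG_zero _ _

end

variable [Fintype K]

theorem card_X1 (hφ : ∀ x, φ x = x ^ q) (hle : twistedD4 K q ≤ D4Fixed.fix φ)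
    (hK : Fintype.card K = q ^ 3) : Nat.card (Nodes.RGDTwD4.X φ q (sr 1)) = q ^ 3 := by
  have h1 : Nat.card (Fx φ ((Nodes.RGDTwNode.D4.rest 1).length + 1)) = q ^ 3 := by
    rw [← hK, ← Nat.card_eq_fintype_card]
    exact Nat.card_congr (Equiv.subtypeUnivEquiv fun t => mem_Fx_three hK hφ t)
  refine Eq.trans ?_ h1
  symm
  refine Nat.card_congr (Equiv.ofBijective (fun t => (⟨Ph hφ hle 1 (up t), (mem_X hφ hle 1 _).2 ⟨t, rfl⟩⟩ :
    Nodes.RGDTwD4.X φ q (sr 1))) ⟨fun a b hab => up_inj hφ hle 1 (congrArg Subtype.val hab), ?_⟩)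
  rintro ⟨g, hg⟩
  obtain ⟨t, ht⟩ := (mem_X hφ hle 1 g).1 hg
  exact ⟨t, Subtype.ext ht.symm⟩

theorem perm_eq_one {σ : Equiv.Perm (Fin 2)} (h : σ 0 ≠ 1) : σ = 1 := by
  have h2 : σ 0 = 0 := by
    generalize σ 0 = a at h
    fin_cases a
    · rfl
    · exact absurd rfl h
  have h4 : σ 1 = 1 := by
    by_contra h5
    have h6 : σ 1 = 0 := by
      generalize σ 1 = a at h5
      fin_cases a
      · rfl
      · exact absurd rfl h5
    exact absurd (σ.injective (h2.trans h6.symm)) (by decide)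
  ext i
  fin_cases i
  · exact congrArg Fin.val h2
  · exact congrArg Fin.val h4

theorem diag_eq_one (hφ : ∀ x, φ x = x ^ q) (hle : twistedD4 K q ≤ D4Fixed.fix φ) (hq : 1 < q)
    (hK : Fintype.card K = q ^ 3) {β : MulAut ↥(twistedD4 K q)} {σ : Equiv.Perm (Fin 2)}
    (D : Diag (Nodes.RGDTwD4.T K q) (Nodes.RGDTwD4.X φ q) β σ) : σ = 1 := by
  refine perm_eq_one fun h => ?_
  have h1 := diag_card D 0
  rw [h, card_X0 hφ hle hq hK, card_X1 hφ hle hK] at h1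
  have h2 : q < q ^ 3 := by
    calc q = q ^ 1 := (pow_one q).symm
      _ < q ^ 3 := Nat.pow_lt_pow_right hq (by norm_num)
  omega

/-- the characters -/
theorem exists_indC {p : ℕ} [Fact p.Prime] [CharP K p] [Fintype ↥(twistedD4 K q)] (hφ : ∀ x, φ x = x ^ q)
    (hle : twistedD4 K q ≤ D4Fixed.fix φ) (hq : IsPrimePow q) (hK : Fintype.card K = q ^ 3) :
    ∃ χ, IndC cs Nodes.RGDTwD4.isCartan (Nodes.RGDTwD4.T K q) (Nodes.RGDTwD4.X φ q) 0 χ := by
  have : Finite CoxeterMatrix.G₂.Group := Nodes.RGDChev.finite_W Cfsg.Agent.BiChar.GTwo.isType cs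
  have Rg := Nodes.RGDTwD4.rgd (K := K) cs hK hφ p
  -- an element of the torus
  obtain ⟨c, hc0, hc4⟩ : ∃ c : Fx φ ((Nodes.RGDTwNode.D4.rest 1).length + 1), c ≠ 0 ∧ c ^ 4 ≠ 1 := by
    have hfin : Finite (Fx φ ((Nodes.RGDTwNode.D4.rest 1).length + 1)) := inferInstance
    obtain ⟨g, hg⟩ := IsCyclic.exists_generator (α := (Fx φ ((Nodes.RGDTwNode.D4.rest 1).length + 1))ˣ)
    have h1 : Nat.card (Fx φ ((Nodes.RGDTwNode.D4.rest 1).length + 1)) = Nat.card K :=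
      Nat.card_congr (Equiv.subtypeUnivEquiv fun t => mem_Fx_three hK hφ t)
    have h2 : orderOf g = Nat.card K - 1 := by
      rw [orderOf_eq_card_of_forall_mem_zpowers hg, Nat.card_units, h1]
    refine ⟨g, g.ne_zero, fun h4 => ?_⟩
    have h5 : g ^ 4 = 1 := Units.ext (by rw [Units.val_pow_eq_pow_val, h4, Units.val_one])
    have h6 := Nat.le_of_dvd (by norm_num) (orderOf_dvd_of_pow_eq_one h5)
    rw [h2, Nat.card_eq_fintype_card, hK] at h6
    have h7 : 2 ^ 3 ≤ q ^ 3 := Nat.pow_le_pow_left hq.two_le 3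
    omega
  have hcc : c * c ≠ 0 := mul_ne_zero hc0 hc0
  exact exists_indC_G2 Rg (GG_top hφ hK) T_comm (by decide)
    (by
      rw [card_X0 hφ hle hq.one_lt hK]
      exact hq.two_le) (a := Ph hφ hle 1 (hS c)) (Cfsg.Agent.BiChar.TwDFour.Ph_hS hφ hle 1 hc0)
    (by
      rw [← map_mul, hS_mul hc0 hc0]
      intro h1
      have h3 := free hφ hle hcc (by
        have e : (c * c) ^ 2 = c ^ 4 := by ring
        rw [e]
        exact hc4) (t := 1) (by rw [h1, one_mul, mul_one])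
      exact one_ne_zero h3)
    (by
      rw [← Cfsg.Agent.BiChar.TwDFour.Ph_wS hφ hle 1, ← map_inv, ← map_mul, ← map_mul, wS_hS hc0, map_inv])
    (by
      intro u hu
      have hu' : (u : GL chevD4.Idx K) ∈ R chevD4 Nodes.RGDTwD4.hp K Nodes.RGDTwD4.J (D4Fixed.sig φ) ![2, 3] :=
        Subgroup.mem_subgroupOf.1 hu
      rw [R_eq cls_hi (by decide +kernel)] at hu'
      exact comm_hi hφ hle (s := 23) (by decide) hu'.1 (p := p) hK _)
    (by
      intro u hu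
      have hu' : (u : GL chevD4.Idx K) ∈ R chevD4 Nodes.RGDTwD4.hp K Nodes.RGDTwD4.J (D4Fixed.sig φ) (-![2, 3]) :=
        Subgroup.mem_subgroupOf.1 hu
      rw [R_eq cls_hi' (by decide +kernel)] at hu'
      exact comm_hi hφ hle (s := 0) (by decide) hu'.1 (p := p) hK _)

omit [Fintype K] in
theorem ab_long (hφ : ∀ x, φ x = x ^ q) (hle : twistedD4 K q ≤ D4Fixed.fix φ) :
    ∀ a ∈ Nodes.RGDTwD4.X φ q (sr 0), ∀ b ∈ Nodes.RGDTwD4.X φ q (sr 0), a * b = b * a := by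
  intro a ha b hb
  obtain ⟨s, rfl⟩ := (mem_X hφ hle 0 a).1 ha
  obtain ⟨t, rfl⟩ := (mem_X hφ hle 0 b).1 hb
  rw [← map_mul, ← map_mul]
  congr 1
  apply Subtype.ext
  change !![1, s; 0, 1] * !![1, t; 0, 1] = !![1, t; 0, 1] * !![1, s; 0, 1]
  ext i j
  fin_cases i <;> fin_cases j <;> simp [add_comm]

/-- the elements of the torus -/
theorem vz_hS (hφ : ∀ x, φ x = x ^ q) (hle : twistedD4 K q ≤ D4Fixed.fix φ) (hq : IsPrimePow q)
    (hK : Fintype.card K = q ^ 3) {d : Fx φ ((Nodes.RGDTwNode.D4.rest 0).length + 1)} (hd : d ≠ 0)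
    (hd2 : d ^ 2 ≠ 1) : H713.VZ ↥(twistedD4 K q) (Ph hφ hle 0 (hS d)) := by
  classical
  obtain ⟨p, hch⟩ := CharP.exists K
  have : Fact p.Prime := ⟨CharP.char_is_prime K p⟩
  have : Finite CoxeterMatrix.G₂.Group := Nodes.RGDChev.finite_W Cfsg.Agent.BiChar.GTwo.isType cs
  have Rg := Nodes.RGDTwD4.rgd (K := K) cs hK hφ p
  have := Fintype.ofFinite ↥(twistedD4 K q)
  obtain ⟨χ, hχ⟩ := exists_indC (p := p) hφ hle hq hK
  refine vz_of_free Rg (GG_top hφ hK) T_comm (i := 0) (ab_long hφ hle)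
    (fun β σ D => diag_eq_one hφ hle hq.one_lt hK D) hχ
    (Cfsg.Agent.BiChar.TwDFour.Ph_hS hφ hle 0 hd) fun w u hu hcm => ?_
  obtain ⟨r, hr, e⟩ := orbit_long w
  rw [← e] at hu
  exact free_long hφ hle hd hd2 hr hu hcm

/-- the elliptic elements -/
theorem vz_ell (hφ : ∀ x, φ x = x ^ q) (hle : twistedD4 K q ≤ D4Fixed.fix φ) (hq : IsPrimePow q)
    (hK : Fintype.card K = q ^ 3)
    {A : Matrix.SpecialLinearGroup (Fin 2) (Fx φ ((Nodes.RGDTwNode.D4.rest 1).length + 1))} (hA : NoSplit A) :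
    H713.VZ ↥(twistedD4 K q) (Ph hφ hle 1 A) ∧ Ph hφ hle 1 A ≠ 1 := by
  classical
  obtain ⟨p, hch⟩ := CharP.exists K
  have : Fact p.Prime := ⟨CharP.char_is_prime K p⟩
  have : Finite CoxeterMatrix.G₂.Group := Nodes.RGDChev.finite_W Cfsg.Agent.BiChar.GTwo.isType cs
  have Rg := Nodes.RGDTwD4.rgd (K := K) cs hK hφ p
  have := Fintype.ofFinite ↥(twistedD4 K q)
  obtain ⟨χ, hχ⟩ := exists_indC (p := p) hφ hle hq hK
  have hcj : cj (Nodes.RGDTwD4.n hφ 1) (Nodes.RGDTwD4.X φ q (sr 1)) = Nodes.RGDTwD4.X φ q (-sr 1) := by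
    rw [Rg.conj 1 _ (isRoot_sr cs Nodes.RGDTwD4.isCartan 1), rep_simple_sr]
  have hlo : ∀ t, Ph hφ hle 1 (lo t) ∈ Nodes.RGDTwD4.X φ q (-sr 1) := by
    intro t
    rw [lo_eq, map_mul, map_mul, map_inv, Cfsg.Agent.BiChar.TwDFour.Ph_wS, ← hcj]
    exact conj_mem_cj.2 ((mem_X hφ hle 1 _).2 ⟨_, rfl⟩)
  have hE : Ell cs Nodes.RGDTwD4.isCartan (Nodes.RGDTwD4.T K q) (Nodes.RGDTwD4.X φ q) {1} (Ph hφ hle 1 A) := by
    refine ell_of_sl2 Rg (Ph hφ hle 1) (fun t => (mem_X hφ hle 1 _).2 ⟨t, rfl⟩) hlo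
      (fun u hu => (mem_X hφ hle 1 u).1 hu) (fun u hu => ?_) (fun t ht h1 => ?_) hA
    · rw [← hcj, mem_cj] at hu
      obtain ⟨a, ha⟩ := (mem_X hφ hle 1 _).1 hu
      refine ⟨-a, ?_⟩
      have e : (lo' (-a) : Matrix.SpecialLinearGroup (Fin 2) (Fx φ ((Nodes.RGDTwNode.D4.rest 1).length + 1))) =
          wS 1 * up (- -a) * (wS 1)⁻¹ := lo_eq (-a)
      rw [e, _root_.neg_neg, map_mul, map_mul, map_inv, Cfsg.Agent.BiChar.TwDFour.Ph_wS, ← ha]
      group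
    · have e : (lo' t : Matrix.SpecialLinearGroup (Fin 2) (Fx φ ((Nodes.RGDTwNode.D4.rest 1).length + 1))) =
          wS 1 * up (-t) * (wS 1)⁻¹ := lo_eq t
      rw [e, map_mul, map_mul, map_inv, mul_inv_eq_one, mul_eq_left] at h1
      have h2 : Ph hφ hle 1 (up (-t)) = Ph hφ hle 1 (up 0) := by
        rw [h1]
        have h0 : (up 0 : Matrix.SpecialLinearGroup (Fin 2) (Fx φ ((Nodes.RGDTwNode.D4.rest 1).length + 1))) = 1 := by
          apply Subtype.ext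
          exact Matrix.one_fin_two.symm
        rw [h0, map_one]
      exact ht (neg_eq_zero.1 (up_inj hφ hle 1 h2))
  refine ⟨vz_of_ell Rg (GG_top hφ hK) (i := 0) (j := 1) (fun β σ D => ?_) hχ hE short_ne_long, ?_⟩
  · rw [diag_eq_one hφ hle hq.one_lt hK D]; rfl
  · intro h1
    rw [h1] at hE
    have h2 := hE.2 1 (one_mem _) ∅ (Set.empty_subset _) (by simp)
    exact Set.singleton_ne_empty _ h2.symm

theorem hS_one {F : Type*} [Field F] : (hS (1 : F) : Matrix.SpecialLinearGroup (Fin 2) F) = 1 := by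
  apply Subtype.ext
  rw [coe_hS one_ne_zero, inv_one]
  exact Matrix.one_fin_two.symm

theorem hS_pow {F : Type*} [Field F] {d : F} (hd : d ≠ 0) (k : ℕ) :
    (hS d : Matrix.SpecialLinearGroup (Fin 2) F) ^ k = hS (d ^ k) := by
  induction k with
  | zero => rw [pow_zero, pow_zero, hS_one]
  | succ k ih => rw [pow_succ, ih, hS_mul (pow_ne_zero _ hd) hd, ← pow_succ]

/-- **`³D₄(q)`.** -/
theorem row (hq : IsPrimePow q) (hK : Fintype.card K = q ^ 3) {p : ℕ} (hp : p.Prime) (hd : p ∣ q ^ 2 - 1) :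
    (p ≠ 2 → H620.PNorm.VOrdP p ↥(twistedD4 K q)) ∧ H620.PNorm.VPow p ↥(twistedD4 K q) := by
  classical
  obtain ⟨φ, hφ⟩ := D4Fixed.exists_frob hq hK
  have hle := D4Fixed.twisted_le_fix hK hφ
  have hq2 := hq.two_le
  have hfac : q ^ 2 - 1 = (q - 1) * (q + 1) := by
    obtain ⟨m, hm⟩ := Nat.exists_eq_add_of_le hq2
    rw [hm, show (2 + m) ^ 2 = (2 + m - 1) * (2 + m + 1) + 1 by
      have : 2 + m - 1 = 1 + m := by omega
      rw [this]; ring]
    rfl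
  rw [hfac] at hd
  have := Fact.mk hp
  have hfin0 : Finite (Fx φ ((Nodes.RGDTwNode.D4.rest 0).length + 1)) := inferInstance
  have hfin1 : Finite (Fx φ ((Nodes.RGDTwNode.D4.rest 1).length + 1)) := inferInstance
  have hcF : Nat.card (Fx φ ((Nodes.RGDTwNode.D4.rest 0).length + 1)) = q := by
    rw [← ChevalleyStructure.D4U.card_fix_field hq.one_lt hK hφ]
    refine Nat.card_congr (Equiv.subtypeEquivRight fun a => ?_)
    rw [mem_Fx]
    exact Iff.rfl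
  have hcE : Nat.card (Fx φ ((Nodes.RGDTwNode.D4.rest 1).length + 1)) = q ^ 3 := by
    rw [← hK, ← Nat.card_eq_fintype_card]
    exact Nat.card_congr (Equiv.subtypeUnivEquiv fun t => mem_Fx_three hK hφ t)
  have hne : ∀ {d : Fx φ ((Nodes.RGDTwNode.D4.rest 0).length + 1)}, d ≠ 0 → d ^ 2 ≠ 1 → Ph hφ hle 0 (hS d) ≠ 1 := by
    intro d hd hd1 h1
    have := free hφ hle hd hd1 (t := 1) (by rw [h1, one_mul, mul_one])
    exact one_ne_zero this
  have key : p ≠ 2 → H620.PNorm.VOrdP p ↥(twistedD4 K q) := by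
    intro h2
    rcases hp.dvd_mul.1 hd with h | h
    · obtain ⟨d, hd⟩ := exists_prime_orderOf_dvd_card' (G := (Fx φ ((Nodes.RGDTwNode.D4.rest 0).length + 1))ˣ) p (by
        rwa [Nat.card_units, hcF])
      have hd1 : (d : Fx φ ((Nodes.RGDTwNode.D4.rest 0).length + 1)) ^ 2 ≠ 1 := by
        intro h6
        have h7 : d ^ 2 = 1 := Units.ext (by rw [Units.val_pow_eq_pow_val, h6, Units.val_one])
        have h8 := orderOf_dvd_of_pow_eq_one h7
        rw [hd] at h8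
        exact h2 ((Nat.prime_dvd_prime_iff_eq hp Nat.prime_two).1 h8)
      refine ⟨Ph hφ hle 0 (hS (d : Fx φ ((Nodes.RGDTwNode.D4.rest 0).length + 1))),
        orderOf_eq_prime ?_ (hne d.ne_zero hd1), vz_hS hφ hle hq hK d.ne_zero hd1⟩
      rw [← map_pow, hS_pow d.ne_zero, ← Units.val_pow_eq_pow_val, ← hd, pow_orderOf_eq_one, Units.val_one, hS_one,
        map_one]
    · obtain ⟨A, hA, hN⟩ := exists_noSplit (F := Fx φ ((Nodes.RGDTwNode.D4.rest 1).length + 1)) hp h2 (by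
        rw [hcE]
        exact h.trans (by
          refine ⟨q ^ 2 - q + 1, ?_⟩
          obtain ⟨m, hm⟩ : ∃ m, q ^ 2 = q + m := ⟨q ^ 2 - q, by
            have : q ≤ q ^ 2 := Nat.le_self_pow (by norm_num) q
            omega⟩
          rw [show q ^ 3 = q ^ 2 * q by ring, hm]
          have e : q + m - q = m := by omega
          rw [e]
          have h9 : q * q = q + m := by rw [← hm]; ring
          nlinarith [h9]))
      exact ⟨Ph hφ hle 1 A, orderOf_eq_prime (by rw [← map_pow, ← hA, pow_orderOf_eq_one, map_one])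
        (vz_ell hφ hle hq hK hN).2, (vz_ell hφ hle hq hK hN).1⟩
  refine ⟨key, ?_⟩
  by_cases h2 : p = 2
  · subst h2
    have hodd : q % 2 = 1 := by
      rcases hp.dvd_mul.1 hd with h | h
      · omega
      · omega
    by_cases hm : q % 4 = 1
    · obtain ⟨g, hg⟩ := IsCyclic.exists_generator (α := (Fx φ ((Nodes.RGDTwNode.D4.rest 0).length + 1))ˣ)
      have hog : orderOf g = q - 1 := by
        rw [orderOf_eq_card_of_forall_mem_zpowers hg, Nat.card_units, hcF]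
      obtain ⟨a, ha⟩ : ∃ a, q = 4 * a + 1 := ⟨q / 4, by omega⟩
      have ha0 : 0 < a := by omega
      set d : (Fx φ ((Nodes.RGDTwNode.D4.rest 0).length + 1))ˣ := g ^ a with hdd
      have hd2 : d ^ 2 ≠ 1 := by
        intro h
        rw [hdd, ← pow_mul] at h
        have h5 := Nat.le_of_dvd (by omega) (orderOf_dvd_of_pow_eq_one h)
        rw [hog] at h5
        omega
      have hd4 : d ^ 4 = 1 := by
        rw [hdd, ← pow_mul, show a * 4 = orderOf g by rw [hog, ha]; omega, pow_orderOf_eq_one]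
      have hd2' : (d : Fx φ ((Nodes.RGDTwNode.D4.rest 0).length + 1)) ^ 2 ≠ 1 := fun h => hd2 (Units.ext (by
        rw [Units.val_pow_eq_pow_val, h, Units.val_one]))
      refine ⟨Ph hφ hle 0 (hS (d : Fx φ ((Nodes.RGDTwNode.D4.rest 0).length + 1))), ?_,
        vz_hS hφ hle hq hK d.ne_zero hd2'⟩
      have h6 : orderOf (Ph hφ hle 0 (hS (d : Fx φ ((Nodes.RGDTwNode.D4.rest 0).length + 1)))) ∣ 2 ^ 2 := by
        apply orderOf_dvd_of_pow_eq_one
        rw [← map_pow, hS_pow d.ne_zero, ← Units.val_pow_eq_pow_val]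
        change Ph hφ hle 0 (hS ((d ^ 4 : (Fx φ ((Nodes.RGDTwNode.D4.rest 0).length + 1))ˣ) :
          Fx φ ((Nodes.RGDTwNode.D4.rest 0).length + 1))) = 1
        rw [hd4, Units.val_one, hS_one, map_one]
      obtain ⟨j, -, hj⟩ := (Nat.dvd_prime_pow Nat.prime_two).1 h6
      exact ⟨j, hj⟩
    · obtain ⟨A, hA, hN⟩ := exists_noSplit_four (F := Fx φ ((Nodes.RGDTwNode.D4.rest 1).length + 1)) (by
        rw [hcE]
        have h3 : q % 4 = 3 := by omega
        rw [Nat.pow_mod, h3])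
      refine ⟨Ph hφ hle 1 A, ?_, (vz_ell hφ hle hq hK hN).1⟩
      have h6 : orderOf (Ph hφ hle 1 A) ∣ 2 ^ 2 := by
        apply orderOf_dvd_of_pow_eq_one
        rw [← map_pow]
        change Ph hφ hle 1 (A ^ 4) = 1
        rw [hA, map_one]
      obtain ⟨j, -, hj⟩ := (Nat.dvd_prime_pow Nat.prime_two).1 h6
      exact ⟨j, hj⟩
  · exact (key h2).vPow

end Cfsg.Agent.H40.PV.TD
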